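import Cfsg.Agent.H652.Four.RowTh
import Cfsg.Agent.H718.NB.Th5Data

/-!
# The Thompson group has an irreducible character of degree divisible by `5 ^ 3` (helper718)

helper652's `Four.RowTh` with the eigenvector of `Th5Data`: the degree is a multiple of `30875 = 5^3 * 13 * 19`.
-/

set_option autoImplicit false
set_option maxRecDepth 100000

namespace Cfsg.Agent.H718.NB.Th5

open Cfsg Cfsg.Agent.H707 Cfsg.Agent.H707.OddLift Cfsg.Agent.H707.RowTh
open Cfsg.Agent.Th.Base (RelK RelC)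
open Cfsg.Agent.Th.Word Cfsg.Agent.Th.KOracle Cfsg.Agent.Th.COracleDef
open Cfsg.Agent.Th.FactData Cfsg.Agent.Th.FlagData Cfsg.Agent.Th.FlagCover
open Cfsg.Agent.Th.IndexBound Cfsg.Agent.Th.IndexUpper Cfsg.Agent.Th.OrbitSum
open Cfsg.Agent.Th.PathCover (unl)
open Cfsg.Agent.H652.Four
open Cfsg.Agent.H652.Four.RowTh (inj_P sum_b')

universe u

theorem sum_a : ∑ i, (∑ j, (RowThData.P i j : ℚ)) * Th5Data.a i ^ 2 = 143127000 / 30875 := by
  decide +kernel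

theorem fin_step {G : Type u} [Group G] (key : ∃ (χ : IrrCharacter G) (d : ℕ),
    (charDegree (χ : G → ℂ) : ℚ) * ∑ i, (∑ j, (RowThData.P i j : ℚ)) * Th5Data.a i ^ 2 =
      d * ∑ i, ∑ j, (RowThData.P i j : ℚ)) :
    ∃ (χ : IrrCharacter G) (d : ℕ), charDegree (χ : G → ℂ) = 30875 * d := by
  obtain ⟨χ, d, hχ⟩ := key
  refine ⟨χ, d, ?_⟩
  rw [sum_a, sum_b'] at hχ
  have h1 : (charDegree (χ : G → ℂ) : ℚ) = ((30875 * d : ℕ) : ℚ) := by
    push_cast
    linarith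
  exact Nat.cast_injective h1

section

variable {G : Type u} [Group G] {γ g : ℕ → G} (h : Cx γ g) (hind : (sub γ isK).index = 143127000)

include h hind

theorem degree [Finite G] : ∃ (χ : IrrCharacter G) (d : ℕ), charDegree (χ : G → ℂ) = 30875 * d := by
  classical
  have hcovK : ∀ x : G, ∃ i : Fin 11, pt (sub γ isK) x ∈ orb (sub γ isK) γ (g i) := by
    intro x
    obtain ⟨ij, hij⟩ := coverP h hind (pt (sub γ isK) x)
    exact ⟨ij.1, piece_orb ij hij⟩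
  have hcovC : ∀ x : G, ∃ j : Fin 13, pt (sub γ isK) x ∈ orbC γ g (j + 11) := by
    intro x
    obtain ⟨-, h2, -, -⟩ := Cfsg.Agent.Th.CentTh.hyps h hind
    exact h2 _
  choose κ hκ using hcovK
  choose c hc using hcovC
  have κiff : ∀ x (i : Fin 11), κ x = i ↔ ∃ k ∈ sub γ isK, ∃ k' ∈ sub γ isK, x = k * g i * k' := by
    intro x i
    constructor
    · rintro rfl
      obtain ⟨k, hk, hx⟩ := hκ x
      rw [pt_eq_iff] at hx
      refine ⟨x * (g (κ x) * k)⁻¹, hx, k, hk, ?_⟩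
      group
    · rintro ⟨k, hk, k', hk', rfl⟩
      refine (exK h hind).2 _ _ _ (hκ _) ⟨k', hk', ?_⟩
      rw [pt_eq_iff]
      show k * g i * k' * (g i * k')⁻¹ ∈ _
      have e : k * g i * k' * (g i * k')⁻¹ = k := by group
      rw [e]
      exact hk
  have ciff : ∀ x (j : Fin 13), c x = j ↔ ∃ k ∈ sub γ isK, ∃ k' ∈ sub γ isC, x = k * g (j + 11) * k' := by
    intro x j
    constructor
    · rintro rfl
      obtain ⟨k, hk, hx⟩ := hc x
      rw [pt_eq_iff] at hx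
      refine ⟨x * (g (c x + 11) * k)⁻¹, hx, k, hk, ?_⟩
      group
    · rintro ⟨k, hk, k', hk', rfl⟩
      refine (exC h hind).2 _ _ _ (hc _) ⟨k', hk', ?_⟩
      rw [pt_eq_iff]
      show k * g (j + 11) * k' * (g (j + 11) * k')⁻¹ ∈ _
      have e : k * g (j + 11) * k' * (g (j + 11) * k')⁻¹ = k := by group
      rw [e]
      exact hk
  have κ1 : κ 1 = 0 := (κiff 1 0).2 ⟨1, Subgroup.one_mem _, 1, Subgroup.one_mem _, by
    show (1 : G) = 1 * g 0 * 1
    rw [h.N.g0, one_mul, one_mul]⟩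
  refine fin_step (SphDeg.degree_of_collapse (sub γ isK) (sub γ isC) κ c ?_ ?_ ?_ ?_ ?_ ?_ RowThData.P
    (Nat.card (sub γ isK)) Nat.card_pos.ne' ?_ RowThData.hi RowThData.hj Th5Data.a Th5Data.s Th5Data.t
    Th5Data.hs Th5Data.ht ?_ ?_ ?_)
  · intro k hk x
    obtain ⟨a, ha, b, hb, e⟩ := (κiff x _).1 rfl
    refine (κiff _ _).2 ⟨k * a, Subgroup.mul_mem _ hk ha, b, hb, ?_⟩
    rw [mul_assoc k, mul_assoc k, ← e]
  · intro x k hk
    obtain ⟨a, ha, b, hb, e⟩ := (κiff x _).1 rfl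
    refine (κiff _ _).2 ⟨a, ha, b * k, Subgroup.mul_mem _ hb hk, ?_⟩
    rw [← mul_assoc, ← e]
  · intro x y hxy
    obtain ⟨a, ha, b, hb, e⟩ := (κiff x _).1 rfl
    obtain ⟨a', ha', b', hb', e'⟩ := (κiff y _).1 hxy.symm
    refine ⟨a' * a⁻¹, Subgroup.mul_mem _ ha' (Subgroup.inv_mem _ ha), b⁻¹ * b',
      Subgroup.mul_mem _ (Subgroup.inv_mem _ hb) hb', ?_⟩
    conv_lhs => rw [e']
    conv_rhs => rw [e]
    group
  · intro k hk x
    obtain ⟨a, ha, b, hb, e⟩ := (ciff x _).1 rfl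
    refine (ciff _ _).2 ⟨k * a, Subgroup.mul_mem _ hk ha, b, hb, ?_⟩
    rw [mul_assoc k, mul_assoc k, ← e]
  · intro x k hk
    obtain ⟨a, ha, b, hb, e⟩ := (ciff x _).1 rfl
    refine (ciff _ _).2 ⟨a, ha, b * k, Subgroup.mul_mem _ hb hk, ?_⟩
    rw [← mul_assoc, ← e]
  · intro x y hxy
    obtain ⟨a, ha, b, hb, e⟩ := (ciff x _).1 rfl
    obtain ⟨a', ha', b', hb', e'⟩ := (ciff y _).1 hxy.symm
    refine ⟨a' * a⁻¹, Subgroup.mul_mem _ ha' (Subgroup.inv_mem _ ha), b⁻¹ * b',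
      Subgroup.mul_mem _ (Subgroup.inv_mem _ hb) hb', ?_⟩
    conv_lhs => rw [e']
    conv_rhs => rw [e]
    group
  · intro i j
    rw [← (exP h hind).1 (i, j), ← card_pt]
    refine Nat.card_congr (Equiv.subtypeEquivRight fun x => ?_)
    rw [← inter h hind]
    constructor
    · rintro ⟨rfl, rfl⟩
      exact ⟨hκ x, hc x⟩
    · rintro ⟨h1, h2⟩
      exact ⟨(exK h hind).2 _ _ _ (hκ x) h1, (exC h hind).2 _ _ _ (hc x) h2⟩
  · intro a' s' h1 h2 i
    rw [κ1]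
    exact Th5Data.huniq a' s' h1 h2 i
  · rw [κ1]
    decide +kernel
  · exact inj_P

end

theorem exists_degree : ∃ (χ : IrrCharacter Spor.Th) (d : ℕ), charDegree (χ : Spor.Th → ℂ) = 30875 * d := by
  obtain ⟨g, hcx⟩ := Cfsg.Agent.Th.Main475.exists_cx
  obtain ⟨h0, -, -, h2⟩ := Cfsg.Agent.Th.Main1700.final
  exact degree hcx h2

end Cfsg.Agent.H718.NB.Th5
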